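import Cfsg.Agent.H242.Five.E960
import Cfsg.Agent.H595.Five.NineSixty
import Cfsg.Agent.H302.St.StepA

/-!
# S3568: the case `|N(Q₁)| = 960`
-/

set_option autoImplicit false

open Pointwise

namespace Cfsg.Agent.H242.Five

open Cfsg.Agent.H399 Cfsg.Agent.H209.Five

variable {G : Type*} [Group G]

theorem e960 [Finite G] {Q₁ Q₂ : Subgroup G} (hq : QPair Q₁ Q₂ 16 4) (g : G) (hg₁ : cj g Q₁ = Q₂) (hg₂ : cj g Q₂ = Q₁)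
    (hN : Nat.card ↥(Nm Q₁) = 960) (hD : Nat.card ↥(Nm Q₁ ⊓ Nm Q₂) = 192)
    (htr : ∀ x ∈ Q₁, ∀ y ∈ Q₁, x ≠ 1 → y ≠ 1 → ∃ a ∈ Nm Q₁, a * x * a⁻¹ = y) :
    ∃ H : Subgroup G, H.index = 2 :=
  e960_of hq g hg₁ hg₂ hN hD htr
    (fun _ _ h P hP hDe => Cfsg.Agent.H595.Five.e960i h P hP hN hDe htr)
    (fun _ _ _ h P hP hDe => Cfsg.Agent.H302.St.stepA960 h P hP hDe)

end Cfsg.Agent.H242.Five
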